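import Cfsg.Agent.H181.OctMain
import Cfsg.Agent.H638.G2Iso
import Cfsg.Agent.H790.PCube
import Cfsg.Agent.H790.Simple

/-!
# `G₂(q)`, `p = 3`, `3 ∤ q`: not every saturated fusion system over the Sylow 3-subgroup is supersoluble (helper817)
-/

set_option autoImplicit false

namespace Cfsg.Agent.H817.GTwoRow

open Cfsg Cfsg.Agent.H790 Cfsg.Agent.H181

variable {G : Type*} [Group G] [Finite G]

/-- strongly closed for the fusion system of the group -/
theorem isStronglyClosed {S U : Subgroup G} (h : (groupFusionSystem S).StronglyClosed U) : Cfsg.IsStronglyClosed U S := by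
  refine ⟨h.1, fun y hyU g hg => ?_⟩
  have hφ : conjHom (Subgroup.zpowers y) g ∈ (groupFusionSystem S).Hom (Subgroup.zpowers y) := by
    refine ⟨?_, ?_, g, fun x => rfl⟩
    · rw [Subgroup.zpowers_le]; exact h.1 hyU
    · rintro ⟨_, k, rfl⟩
      show g * y ^ k * g⁻¹ ∈ S
      rw [← conj_zpow]
      exact S.zpow_mem hg k
  exact h.2 (Subgroup.zpowers y) (by rwa [Subgroup.zpowers_le]) _ hφ ⟨y, Subgroup.mem_zpowers y⟩

theorem key {S Z : Subgroup G} (hZ : Z ≤ Subgroup.centralizer (S : Set G))
    (hcl : ∀ U : Subgroup G, Cfsg.IsStronglyClosed U S → U ≠ ⊥ → U ≠ S → U = Z)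
    {U : Subgroup G} (h : SS (groupFusionSystem S) U) (hU : U = S) : ∀ a ∈ S, ∀ b ∈ S, a * b = b * a := by
  induction h with
  | bot =>
    intro a ha b hb
    rw [← hU, Subgroup.mem_bot] at ha hb
    rw [ha, hb]
  | @step V U x hV hx hUs he ih =>
    by_cases hVS : V = S
    · exact ih hVS
    have hVZ : V ≤ Subgroup.centralizer (S : Set G) := by
      by_cases hV0 : V = ⊥
      · rw [hV0]; exact bot_le
      · rw [hcl V (isStronglyClosed hV.stronglyClosed) hV0 hVS]
        exact hZ
    -- `S ≤ C(x)`, then `S` is generated by central elements and `x`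
    have h1 : S ≤ Subgroup.centralizer ({x} : Set G) := by
      rw [← hU, he, sup_le_iff]
      constructor
      · intro v hv
        rw [Subgroup.mem_centralizer_singleton_iff]
        exact (Subgroup.mem_centralizer_iff.1 (hVZ hv) x hx).symm
      · rw [Subgroup.zpowers_le, Subgroup.mem_centralizer_singleton_iff]
    have h2 : S ≤ Subgroup.centralizer (S : Set G) := by
      nth_rewrite 1 [← hU]
      rw [he, sup_le_iff]
      refine ⟨hVZ, ?_⟩
      rw [Subgroup.zpowers_le, Subgroup.mem_centralizer_iff]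
      intro s hs
      exact Subgroup.mem_centralizer_singleton_iff.1 (h1 hs)
    intro a ha b hb
    exact Subgroup.mem_centralizer_iff.1 (h2 hb) a ha

theorem false_g2_three [IsSimpleGroup G] (hna : ¬ IsMulCommutative G) {F : Type*} [Field F] [Fintype F] (h3 : (3 : F) ≠ 0)
    (e : G ≃* Cfsg.Lie.G2 F) (T : Sylow 3 G)
    (hall : ∀ X : FusionSystem (T : Subgroup G), X.IsSaturated 3 → Super X) : False := by
  have : Fact (Nat.Prime 3) := ⟨Nat.prime_three⟩
  have hcen := OctHerm.card_center h3 e T
  by_cases h9 : 9 ∣ Nat.card F ^ 2 - 1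
  · have hs := ss_of_super (hall _ (H802.groupFusionSystem_isSaturated T))
    have hab := key (Z := (T : Subgroup G) ⊓ Subgroup.centralizer ((T : Subgroup G) : Set G)) inf_le_right
      (fun U hU h0 h1 => (OctHerm.closed h3 e T h9 hU h0 h1).1) hs rfl
    obtain ⟨D, hDT, -, hD, hD81⟩ := OctHerm.exists_abelian h3 e T
    have h4 : (T : Subgroup G) ⊓ Subgroup.centralizer ((T : Subgroup G) : Set G) = T := by
      rw [inf_eq_left]
      intro x hx
      rw [Subgroup.mem_centralizer_iff]
      intro y hy
      exact hab y hy x hx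
    rw [h4, hD] at hcen
    have := hD81 h9
    omega
  · have hperf : commutator G = ⊤ := by
      rcases (inferInstance : (commutator G).Normal).eq_bot_or_eq_top with h1 | h1
      · exfalso
        apply hna
        rw [_root_.commutator_def, Subgroup.commutator_eq_bot_iff_le_centralizer] at h1
        exact ⟨⟨fun a b => (Subgroup.mem_centralizer_iff.1 (h1 (Subgroup.mem_top b)) a (Subgroup.mem_top a))⟩⟩
      · exact h1
    have h27 := OctHerm.card_sylow_27 h3 e T h9
    have hab := abelian_of_card_cube (by norm_num) hperf hall (by rw [h27]; norm_num)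
    have h4 : (T : Subgroup G) ⊓ Subgroup.centralizer ((T : Subgroup G) : Set G) = T := by
      rw [inf_eq_left]
      intro x hx
      rw [Subgroup.mem_centralizer_iff]
      intro y hy
      exact congrArg Subtype.val (hab.1.1 ⟨y, hy⟩ ⟨x, hx⟩)
    rw [h4, h27] at hcen
    omega

theorem false_chevG2_three [IsSimpleGroup G] (hna : ¬ IsMulCommutative G) {F : Type*} [Field F] [Fintype F] (h3 : (3 : F) ≠ 0)
    (e : Nonempty (G ≃* Cfsg.Lie.chevG2.group F)) (T : Sylow 3 G)
    (hall : ∀ X : FusionSystem (T : Subgroup G), X.IsSaturated 3 → Super X) : False := by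
  obtain ⟨e⟩ := e
  obtain ⟨f⟩ := H638.G2Iso.equiv (F := F)
  exact false_g2_three hna h3 (e.trans f.symm) T hall

end Cfsg.Agent.H817.GTwoRow
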